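import Cfsg.Agent.H827.U33.DatG

/-! # S5525, part G: action of `wa 1` (helper827) -/

set_option autoImplicit false
set_option Elab.async false

namespace Cfsg.Agent.H827.U33

open Cfsg.Agent.BabyM.Conc Cfsg.Agent.BabyM.Inst Cfsg.Agent.BabyM.TransInv Cfsg.Agent.H819.U33 Cfsg.Agent.H863.U33
open Cfsg.Agent.BM.StageW

theorem act1_0 : chk (we 0 ++ wa 1) (wa 1 ++ nfw (AG 1 0) (CG 1 0)) = true := by decide +kernel

theorem act1_1 : chk (we 1 ++ wa 1) (wa 1 ++ nfw (AG 1 1) (CG 1 1)) = true := by decide +kernel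

theorem act1_2 : chk (we 2 ++ wa 1) (wa 1 ++ nfw (AG 1 2) (CG 1 2)) = true := by decide +kernel

theorem act1_3 : chk (we 3 ++ wa 1) (wa 1 ++ nfw (AG 1 3) (CG 1 3)) = true := by decide +kernel

theorem act1_4 : chk (we 4 ++ wa 1) (wa 1 ++ nfw (AG 1 4) (CG 1 4)) = true := by decide +kernel

theorem act1_5 : chk (we 5 ++ wa 1) (wa 1 ++ nfw (AG 1 5) (CG 1 5)) = true := by decide +kernel

theorem act1_6 : chk (we 6 ++ wa 1) (wa 1 ++ nfw (AG 1 6) (CG 1 6)) = true := by decide +kernel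

theorem act1_7 : chk (we 7 ++ wa 1) (wa 1 ++ nfw (AG 1 7) (CG 1 7)) = true := by decide +kernel


theorem act1 (j : Fin 8) : chk (we j ++ wa 1) (wa 1 ++ nfw (AG 1 j) (CG 1 j)) = true := by
  fin_cases j
  · exact act1_0
  · exact act1_1
  · exact act1_2
  · exact act1_3
  · exact act1_4
  · exact act1_5
  · exact act1_6
  · exact act1_7

theorem cu1 : chk (wa 1 ++ wu1) (wu1 ++ wa 1) = true := by decide +kernel

theorem cy1 : chk (wa 1 ++ wy1) (wy1 ++ wa 1) = true := by decide +kernel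

theorem n1_1 : ne (wa 1) [] = true := by decide +kernel

theorem sq1 : chk (wa 1 ++ wa 1) [] = true := by decide +kernel

end Cfsg.Agent.H827.U33
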