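import Cfsg.Agent.H827.U33.DatG

/-! # S5525, part G: the link (helper827) -/

set_option autoImplicit false

namespace Cfsg.Agent.H827.U33

open Cfsg.Agent.BabyM.Conc Cfsg.Agent.BabyM.Inst Cfsg.Agent.BabyM.TransInv Cfsg.Agent.H819.U33 Cfsg.Agent.H863.U33
open Cfsg.Agent.BM.StageW

theorem c_y : chk (wy ++ wc) (wc ++ wy1) = true := by decide +kernel

theorem c_u : chk (wu ++ wc) (wc ++ wu1) = true := by decide +kernel

end Cfsg.Agent.H827.U33
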