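import Cfsg.Agent.H827.U33.DatG

/-! # S5525, part G: kernel checks, representatives 0 to 8 (helper827) -/

set_option autoImplicit false
set_option Elab.async false

namespace Cfsg.Agent.H827.U33

theorem r0_0 : tst ![0, 0, 0, 0, 1, 0, 0, 1] 0 = true := by decide +kernel

theorem r0_1 : tst ![0, 0, 0, 0, 1, 0, 0, 1] 1 = true := by decide +kernel

theorem r0_2 : tst ![0, 0, 0, 0, 1, 0, 0, 1] 2 = true := by decide +kernel

theorem r1_0 : tst ![0, 0, 0, 0, 0, 1, 1, 0] 0 = true := by decide +kernel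

theorem r1_1 : tst ![0, 0, 0, 0, 0, 1, 1, 0] 1 = true := by decide +kernel

theorem r1_2 : tst ![0, 0, 0, 0, 0, 1, 1, 0] 2 = true := by decide +kernel

theorem r2_0 : tst ![0, 0, 0, 0, 2, 0, 0, 1] 0 = true := by decide +kernel

theorem r2_1 : tst ![0, 0, 0, 0, 2, 0, 0, 1] 1 = true := by decide +kernel

theorem r2_2 : tst ![0, 0, 0, 0, 2, 0, 0, 1] 2 = true := by decide +kernel

theorem r3_0 : tst ![1, 0, 0, 0, 1, 0, 1, 0] 0 = true := by decide +kernel

theorem r3_1 : tst ![1, 0, 0, 0, 1, 0, 1, 0] 1 = true := by decide +kernel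

theorem r3_2 : tst ![1, 0, 0, 0, 1, 0, 1, 0] 2 = true := by decide +kernel

theorem r4_0 : tst ![0, 0, 0, 0, 1, 1, 0, 1] 0 = true := by decide +kernel

theorem r4_1 : tst ![0, 0, 0, 0, 1, 1, 0, 1] 1 = true := by decide +kernel

theorem r4_2 : tst ![0, 0, 0, 0, 1, 1, 0, 1] 2 = true := by decide +kernel

theorem r5_0 : tst ![0, 1, 0, 0, 1, 0, 0, 1] 0 = true := by decide +kernel

theorem r5_1 : tst ![0, 1, 0, 0, 1, 0, 0, 1] 1 = true := by decide +kernel

theorem r5_2 : tst ![0, 1, 0, 0, 1, 0, 0, 1] 2 = true := by decide +kernel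

theorem r6_0 : tst ![1, 0, 0, 0, 0, 1, 0, 1] 0 = true := by decide +kernel

theorem r6_1 : tst ![1, 0, 0, 0, 0, 1, 0, 1] 1 = true := by decide +kernel

theorem r6_2 : tst ![1, 0, 0, 0, 0, 1, 0, 1] 2 = true := by decide +kernel

theorem r7_0 : tst ![0, 1, 0, 0, 1, 0, 1, 0] 0 = true := by decide +kernel

theorem r7_1 : tst ![0, 1, 0, 0, 1, 0, 1, 0] 1 = true := by decide +kernel

theorem r7_2 : tst ![0, 1, 0, 0, 1, 0, 1, 0] 2 = true := by decide +kernel

theorem r8_0 : tst ![1, 0, 0, 0, 0, 1, 1, 0] 0 = true := by decide +kernel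

theorem r8_1 : tst ![1, 0, 0, 0, 0, 1, 1, 0] 1 = true := by decide +kernel

theorem r8_2 : tst ![1, 0, 0, 0, 0, 1, 1, 0] 2 = true := by decide +kernel

end Cfsg.Agent.H827.U33
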