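import Cfsg.Agent.H827.U33.DatG

/-! # S5525, part G: kernel checks, representatives 9 to 18 (helper827) -/

set_option autoImplicit false
set_option Elab.async false

namespace Cfsg.Agent.H827.U33

theorem r9_0 : tst ![0, 1, 0, 0, 0, 1, 0, 1] 0 = true := by decide +kernel

theorem r9_1 : tst ![0, 1, 0, 0, 0, 1, 0, 1] 1 = true := by decide +kernel

theorem r9_2 : tst ![0, 1, 0, 0, 0, 1, 0, 1] 2 = true := by decide +kernel

theorem r10_0 : tst ![0, 0, 0, 0, 0, 2, 1, 0] 0 = true := by decide +kernel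

theorem r10_1 : tst ![0, 0, 0, 0, 0, 2, 1, 0] 1 = true := by decide +kernel

theorem r10_2 : tst ![0, 0, 0, 0, 0, 2, 1, 0] 2 = true := by decide +kernel

theorem r11_0 : tst ![0, 1, 0, 0, 0, 1, 1, 0] 0 = true := by decide +kernel

theorem r11_1 : tst ![0, 1, 0, 0, 0, 1, 1, 0] 1 = true := by decide +kernel

theorem r11_2 : tst ![0, 1, 0, 0, 0, 1, 1, 0] 2 = true := by decide +kernel

theorem r12_0 : tst ![1, 0, 0, 0, 2, 0, 0, 1] 0 = true := by decide +kernel

theorem r12_1 : tst ![1, 0, 0, 0, 2, 0, 0, 1] 1 = true := by decide +kernel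

theorem r12_2 : tst ![1, 0, 0, 0, 2, 0, 0, 1] 2 = true := by decide +kernel

theorem r13_0 : tst ![1, 0, 0, 0, 2, 0, 1, 0] 0 = true := by decide +kernel

theorem r13_1 : tst ![1, 0, 0, 0, 2, 0, 1, 0] 1 = true := by decide +kernel

theorem r13_2 : tst ![1, 0, 0, 0, 2, 0, 1, 0] 2 = true := by decide +kernel

theorem r14_0 : tst ![2, 0, 0, 0, 1, 0, 1, 0] 0 = true := by decide +kernel

theorem r14_1 : tst ![2, 0, 0, 0, 1, 0, 1, 0] 1 = true := by decide +kernel

theorem r14_2 : tst ![2, 0, 0, 0, 1, 0, 1, 0] 2 = true := by decide +kernel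

theorem r15_0 : tst ![1, 1, 0, 0, 1, 0, 0, 1] 0 = true := by decide +kernel

theorem r15_1 : tst ![1, 1, 0, 0, 1, 0, 0, 1] 1 = true := by decide +kernel

theorem r15_2 : tst ![1, 1, 0, 0, 1, 0, 0, 1] 2 = true := by decide +kernel

theorem r16_0 : tst ![2, 0, 0, 0, 0, 1, 0, 1] 0 = true := by decide +kernel

theorem r16_1 : tst ![2, 0, 0, 0, 0, 1, 0, 1] 1 = true := by decide +kernel

theorem r16_2 : tst ![2, 0, 0, 0, 0, 1, 0, 1] 2 = true := by decide +kernel

theorem r17_0 : tst ![1, 0, 0, 0, 1, 1, 1, 0] 0 = true := by decide +kernel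

theorem r17_1 : tst ![1, 0, 0, 0, 1, 1, 1, 0] 1 = true := by decide +kernel

theorem r17_2 : tst ![1, 0, 0, 0, 1, 1, 1, 0] 2 = true := by decide +kernel

theorem r18_0 : tst ![1, 1, 0, 0, 1, 0, 1, 0] 0 = true := by decide +kernel

theorem r18_1 : tst ![1, 1, 0, 0, 1, 0, 1, 0] 1 = true := by decide +kernel

theorem r18_2 : tst ![1, 1, 0, 0, 1, 0, 1, 0] 2 = true := by decide +kernel

end Cfsg.Agent.H827.U33
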