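import Cfsg.Agent.H827.U33.DatG

/-! # S5525, part G: kernel checks, representatives 95 to 103 (helper827) -/

set_option autoImplicit false
set_option Elab.async false

namespace Cfsg.Agent.H827.U33

theorem r95_0 : tst ![2, 1, 0, 1, 2, 0, 1, 0] 0 = true := by decide +kernel

theorem r95_1 : tst ![2, 1, 0, 1, 2, 0, 1, 0] 1 = true := by decide +kernel

theorem r95_2 : tst ![2, 1, 0, 1, 2, 0, 1, 0] 2 = true := by decide +kernel

theorem r96_0 : tst ![0, 0, 2, 0, 0, 2, 0, 1] 0 = true := by decide +kernel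

theorem r96_1 : tst ![0, 0, 2, 0, 0, 2, 0, 1] 1 = true := by decide +kernel

theorem r96_2 : tst ![0, 0, 2, 0, 0, 2, 0, 1] 2 = true := by decide +kernel

theorem r97_0 : tst ![2, 0, 1, 0, 2, 1, 1, 0] 0 = true := by decide +kernel

theorem r97_1 : tst ![2, 0, 1, 0, 2, 1, 1, 0] 1 = true := by decide +kernel

theorem r97_2 : tst ![2, 0, 1, 0, 2, 1, 1, 0] 2 = true := by decide +kernel

theorem r98_0 : tst ![2, 1, 1, 0, 2, 0, 1, 0] 0 = true := by decide +kernel

theorem r98_1 : tst ![2, 1, 1, 0, 2, 0, 1, 0] 1 = true := by decide +kernel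

theorem r98_2 : tst ![2, 1, 1, 0, 2, 0, 1, 0] 2 = true := by decide +kernel

theorem r99_0 : tst ![2, 2, 1, 0, 1, 0, 0, 1] 0 = true := by decide +kernel

theorem r99_1 : tst ![2, 2, 1, 0, 1, 0, 0, 1] 1 = true := by decide +kernel

theorem r99_2 : tst ![2, 2, 1, 0, 1, 0, 0, 1] 2 = true := by decide +kernel

theorem r100_0 : tst ![0, 1, 0, 1, 2, 2, 0, 1] 0 = true := by decide +kernel

theorem r100_1 : tst ![0, 1, 0, 1, 2, 2, 0, 1] 1 = true := by decide +kernel

theorem r100_2 : tst ![0, 1, 0, 1, 2, 2, 0, 1] 2 = true := by decide +kernel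

theorem r101_0 : tst ![2, 0, 1, 1, 1, 0, 1, 0] 0 = true := by decide +kernel

theorem r101_1 : tst ![2, 0, 1, 1, 1, 0, 1, 0] 1 = true := by decide +kernel

theorem r101_2 : tst ![2, 0, 1, 1, 1, 0, 1, 0] 2 = true := by decide +kernel

theorem r102_0 : tst ![2, 0, 2, 0, 1, 0, 0, 1] 0 = true := by decide +kernel

theorem r102_1 : tst ![2, 0, 2, 0, 1, 0, 0, 1] 1 = true := by decide +kernel

theorem r102_2 : tst ![2, 0, 2, 0, 1, 0, 0, 1] 2 = true := by decide +kernel

theorem r103_0 : tst ![1, 0, 0, 0, 1, 1, 1, 2] 0 = true := by decide +kernel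

theorem r103_1 : tst ![1, 0, 0, 0, 1, 1, 1, 2] 1 = true := by decide +kernel

theorem r103_2 : tst ![1, 0, 0, 0, 1, 1, 1, 2] 2 = true := by decide +kernel

end Cfsg.Agent.H827.U33
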