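import Cfsg.Agent.H827.U33.DatG

/-! # S5525, part G: kernel checks, representatives 104 to 113 (helper827) -/

set_option autoImplicit false
set_option Elab.async false

namespace Cfsg.Agent.H827.U33

theorem r104_0 : tst ![1, 1, 1, 1, 1, 0, 1, 0] 0 = true := by decide +kernel

theorem r104_1 : tst ![1, 1, 1, 1, 1, 0, 1, 0] 1 = true := by decide +kernel

theorem r104_2 : tst ![1, 1, 1, 1, 1, 0, 1, 0] 2 = true := by decide +kernel

theorem r105_0 : tst ![1, 1, 0, 2, 0, 1, 0, 1] 0 = true := by decide +kernel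

theorem r105_1 : tst ![1, 1, 0, 2, 0, 1, 0, 1] 1 = true := by decide +kernel

theorem r105_2 : tst ![1, 1, 0, 2, 0, 1, 0, 1] 2 = true := by decide +kernel

theorem r106_0 : tst ![1, 1, 0, 0, 0, 1, 1, 2] 0 = true := by decide +kernel

theorem r106_1 : tst ![1, 1, 0, 0, 0, 1, 1, 2] 1 = true := by decide +kernel

theorem r106_2 : tst ![1, 1, 0, 0, 0, 1, 1, 2] 2 = true := by decide +kernel

theorem r107_0 : tst ![0, 0, 0, 1, 0, 1, 1, 2] 0 = true := by decide +kernel

theorem r107_1 : tst ![0, 0, 0, 1, 0, 1, 1, 2] 1 = true := by decide +kernel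

theorem r107_2 : tst ![0, 0, 0, 1, 0, 1, 1, 2] 2 = true := by decide +kernel

theorem r108_0 : tst ![2, 1, 0, 0, 1, 0, 1, 2] 0 = true := by decide +kernel

theorem r108_1 : tst ![2, 1, 0, 0, 1, 0, 1, 2] 1 = true := by decide +kernel

theorem r108_2 : tst ![2, 1, 0, 0, 1, 0, 1, 2] 2 = true := by decide +kernel

theorem r109_0 : tst ![2, 1, 2, 0, 1, 0, 1, 0] 0 = true := by decide +kernel

theorem r109_1 : tst ![2, 1, 2, 0, 1, 0, 1, 0] 1 = true := by decide +kernel

theorem r109_2 : tst ![2, 1, 2, 0, 1, 0, 1, 0] 2 = true := by decide +kernel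

theorem r110_0 : tst ![0, 2, 0, 0, 1, 1, 1, 2] 0 = true := by decide +kernel

theorem r110_1 : tst ![0, 2, 0, 0, 1, 1, 1, 2] 1 = true := by decide +kernel

theorem r110_2 : tst ![0, 2, 0, 0, 1, 1, 1, 2] 2 = true := by decide +kernel

theorem r111_0 : tst ![0, 1, 1, 0, 1, 0, 1, 2] 0 = true := by decide +kernel

theorem r111_1 : tst ![0, 1, 1, 0, 1, 0, 1, 2] 1 = true := by decide +kernel

theorem r111_2 : tst ![0, 1, 1, 0, 1, 0, 1, 2] 2 = true := by decide +kernel

theorem r112_0 : tst ![2, 1, 1, 0, 0, 1, 1, 2] 0 = true := by decide +kernel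

theorem r112_1 : tst ![2, 1, 1, 0, 0, 1, 1, 2] 1 = true := by decide +kernel

theorem r112_2 : tst ![2, 1, 1, 0, 0, 1, 1, 2] 2 = true := by decide +kernel

theorem r113_0 : tst ![1, 1, 2, 0, 1, 0, 1, 2] 0 = true := by decide +kernel

theorem r113_1 : tst ![1, 1, 2, 0, 1, 0, 1, 2] 1 = true := by decide +kernel

theorem r113_2 : tst ![1, 1, 2, 0, 1, 0, 1, 2] 2 = true := by decide +kernel

end Cfsg.Agent.H827.U33
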