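import Cfsg.Agent.H827.U33.DatG

/-! # S5525, part G: kernel checks, representatives 19 to 27 (helper827) -/

set_option autoImplicit false
set_option Elab.async false

namespace Cfsg.Agent.H827.U33

theorem r19_0 : tst ![0, 1, 0, 0, 1, 1, 0, 1] 0 = true := by decide +kernel

theorem r19_1 : tst ![0, 1, 0, 0, 1, 1, 0, 1] 1 = true := by decide +kernel

theorem r19_2 : tst ![0, 1, 0, 0, 1, 1, 0, 1] 2 = true := by decide +kernel

theorem r20_0 : tst ![1, 1, 0, 0, 0, 1, 0, 1] 0 = true := by decide +kernel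

theorem r20_1 : tst ![1, 1, 0, 0, 0, 1, 0, 1] 1 = true := by decide +kernel

theorem r20_2 : tst ![1, 1, 0, 0, 0, 1, 0, 1] 2 = true := by decide +kernel

theorem r21_0 : tst ![0, 2, 0, 0, 1, 0, 1, 0] 0 = true := by decide +kernel

theorem r21_1 : tst ![0, 2, 0, 0, 1, 0, 1, 0] 1 = true := by decide +kernel

theorem r21_2 : tst ![0, 2, 0, 0, 1, 0, 1, 0] 2 = true := by decide +kernel

theorem r22_0 : tst ![1, 1, 0, 0, 0, 1, 1, 0] 0 = true := by decide +kernel

theorem r22_1 : tst ![1, 1, 0, 0, 0, 1, 1, 0] 1 = true := by decide +kernel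

theorem r22_2 : tst ![1, 1, 0, 0, 0, 1, 1, 0] 2 = true := by decide +kernel

theorem r23_0 : tst ![0, 0, 0, 1, 1, 0, 0, 1] 0 = true := by decide +kernel

theorem r23_1 : tst ![0, 0, 0, 1, 1, 0, 0, 1] 1 = true := by decide +kernel

theorem r23_2 : tst ![0, 0, 0, 1, 1, 0, 0, 1] 2 = true := by decide +kernel

theorem r24_0 : tst ![0, 2, 0, 0, 0, 1, 0, 1] 0 = true := by decide +kernel

theorem r24_1 : tst ![0, 2, 0, 0, 0, 1, 0, 1] 1 = true := by decide +kernel

theorem r24_2 : tst ![0, 2, 0, 0, 0, 1, 0, 1] 2 = true := by decide +kernel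

theorem r25_0 : tst ![0, 0, 0, 1, 1, 0, 1, 0] 0 = true := by decide +kernel

theorem r25_1 : tst ![0, 0, 0, 1, 1, 0, 1, 0] 1 = true := by decide +kernel

theorem r25_2 : tst ![0, 0, 0, 1, 1, 0, 1, 0] 2 = true := by decide +kernel

theorem r26_0 : tst ![0, 0, 1, 0, 1, 0, 1, 0] 0 = true := by decide +kernel

theorem r26_1 : tst ![0, 0, 1, 0, 1, 0, 1, 0] 1 = true := by decide +kernel

theorem r26_2 : tst ![0, 0, 1, 0, 1, 0, 1, 0] 2 = true := by decide +kernel

theorem r27_0 : tst ![1, 0, 1, 0, 0, 0, 1, 0] 0 = true := by decide +kernel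

theorem r27_1 : tst ![1, 0, 1, 0, 0, 0, 1, 0] 1 = true := by decide +kernel

theorem r27_2 : tst ![1, 0, 1, 0, 0, 0, 1, 0] 2 = true := by decide +kernel

end Cfsg.Agent.H827.U33
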