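import Cfsg.Agent.H827.U33.DatG

/-! # S5525, part G: kernel checks, representatives 28 to 37 (helper827) -/

set_option autoImplicit false
set_option Elab.async false

namespace Cfsg.Agent.H827.U33

theorem r28_0 : tst ![0, 0, 0, 1, 0, 1, 0, 1] 0 = true := by decide +kernel

theorem r28_1 : tst ![0, 0, 0, 1, 0, 1, 0, 1] 1 = true := by decide +kernel

theorem r28_2 : tst ![0, 0, 0, 1, 0, 1, 0, 1] 2 = true := by decide +kernel

theorem r29_0 : tst ![0, 0, 0, 1, 0, 1, 1, 0] 0 = true := by decide +kernel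

theorem r29_1 : tst ![0, 0, 0, 1, 0, 1, 1, 0] 1 = true := by decide +kernel

theorem r29_2 : tst ![0, 0, 0, 1, 0, 1, 1, 0] 2 = true := by decide +kernel

theorem r30_0 : tst ![0, 0, 1, 0, 0, 1, 0, 1] 0 = true := by decide +kernel

theorem r30_1 : tst ![0, 0, 1, 0, 0, 1, 0, 1] 1 = true := by decide +kernel

theorem r30_2 : tst ![0, 0, 1, 0, 0, 1, 0, 1] 2 = true := by decide +kernel

theorem r31_0 : tst ![2, 0, 0, 0, 2, 0, 1, 0] 0 = true := by decide +kernel

theorem r31_1 : tst ![2, 0, 0, 0, 2, 0, 1, 0] 1 = true := by decide +kernel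

theorem r31_2 : tst ![2, 0, 0, 0, 2, 0, 1, 0] 2 = true := by decide +kernel

theorem r32_0 : tst ![1, 0, 0, 0, 2, 1, 0, 1] 0 = true := by decide +kernel

theorem r32_1 : tst ![1, 0, 0, 0, 2, 1, 0, 1] 1 = true := by decide +kernel

theorem r32_2 : tst ![1, 0, 0, 0, 2, 1, 0, 1] 2 = true := by decide +kernel

theorem r33_0 : tst ![1, 1, 0, 0, 2, 0, 0, 1] 0 = true := by decide +kernel

theorem r33_1 : tst ![1, 1, 0, 0, 2, 0, 0, 1] 1 = true := by decide +kernel

theorem r33_2 : tst ![1, 1, 0, 0, 2, 0, 0, 1] 2 = true := by decide +kernel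

theorem r34_0 : tst ![2, 0, 0, 0, 1, 1, 0, 1] 0 = true := by decide +kernel

theorem r34_1 : tst ![2, 0, 0, 0, 1, 1, 0, 1] 1 = true := by decide +kernel

theorem r34_2 : tst ![2, 0, 0, 0, 1, 1, 0, 1] 2 = true := by decide +kernel

theorem r35_0 : tst ![2, 1, 0, 0, 1, 0, 0, 1] 0 = true := by decide +kernel

theorem r35_1 : tst ![2, 1, 0, 0, 1, 0, 0, 1] 1 = true := by decide +kernel

theorem r35_2 : tst ![2, 1, 0, 0, 1, 0, 0, 1] 2 = true := by decide +kernel

theorem r36_0 : tst ![1, 0, 0, 0, 2, 1, 1, 0] 0 = true := by decide +kernel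

theorem r36_1 : tst ![1, 0, 0, 0, 2, 1, 1, 0] 1 = true := by decide +kernel

theorem r36_2 : tst ![1, 0, 0, 0, 2, 1, 1, 0] 2 = true := by decide +kernel

theorem r37_0 : tst ![0, 0, 0, 0, 2, 2, 0, 1] 0 = true := by decide +kernel

theorem r37_1 : tst ![0, 0, 0, 0, 2, 2, 0, 1] 1 = true := by decide +kernel

theorem r37_2 : tst ![0, 0, 0, 0, 2, 2, 0, 1] 2 = true := by decide +kernel

end Cfsg.Agent.H827.U33
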