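import Cfsg.Agent.H827.U33.DatG

/-! # S5525, part G: kernel checks, representatives 38 to 46 (helper827) -/

set_option autoImplicit false
set_option Elab.async false

namespace Cfsg.Agent.H827.U33

theorem r38_0 : tst ![1, 1, 0, 0, 1, 1, 0, 1] 0 = true := by decide +kernel

theorem r38_1 : tst ![1, 1, 0, 0, 1, 1, 0, 1] 1 = true := by decide +kernel

theorem r38_2 : tst ![1, 1, 0, 0, 1, 1, 0, 1] 2 = true := by decide +kernel

theorem r39_0 : tst ![2, 0, 0, 0, 0, 2, 0, 1] 0 = true := by decide +kernel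

theorem r39_1 : tst ![2, 0, 0, 0, 0, 2, 0, 1] 1 = true := by decide +kernel

theorem r39_2 : tst ![2, 0, 0, 0, 0, 2, 0, 1] 2 = true := by decide +kernel

theorem r40_0 : tst ![2, 1, 0, 0, 0, 1, 1, 0] 0 = true := by decide +kernel

theorem r40_1 : tst ![2, 1, 0, 0, 0, 1, 1, 0] 1 = true := by decide +kernel

theorem r40_2 : tst ![2, 1, 0, 0, 0, 1, 1, 0] 2 = true := by decide +kernel

theorem r41_0 : tst ![1, 0, 0, 1, 1, 0, 0, 1] 0 = true := by decide +kernel

theorem r41_1 : tst ![1, 0, 0, 1, 1, 0, 0, 1] 1 = true := by decide +kernel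

theorem r41_2 : tst ![1, 0, 0, 1, 1, 0, 0, 1] 2 = true := by decide +kernel

theorem r42_0 : tst ![0, 2, 0, 0, 1, 1, 0, 1] 0 = true := by decide +kernel

theorem r42_1 : tst ![0, 2, 0, 0, 1, 1, 0, 1] 1 = true := by decide +kernel

theorem r42_2 : tst ![0, 2, 0, 0, 1, 1, 0, 1] 2 = true := by decide +kernel

theorem r43_0 : tst ![1, 0, 0, 0, 1, 0, 1, 1] 0 = true := by decide +kernel

theorem r43_1 : tst ![1, 0, 0, 0, 1, 0, 1, 1] 1 = true := by decide +kernel

theorem r43_2 : tst ![1, 0, 0, 0, 1, 0, 1, 1] 2 = true := by decide +kernel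

theorem r44_0 : tst ![1, 0, 1, 0, 1, 0, 0, 1] 0 = true := by decide +kernel

theorem r44_1 : tst ![1, 0, 1, 0, 1, 0, 0, 1] 1 = true := by decide +kernel

theorem r44_2 : tst ![1, 0, 1, 0, 1, 0, 0, 1] 2 = true := by decide +kernel

theorem r45_0 : tst ![2, 0, 1, 0, 0, 0, 0, 1] 0 = true := by decide +kernel

theorem r45_1 : tst ![2, 0, 1, 0, 0, 0, 0, 1] 1 = true := by decide +kernel

theorem r45_2 : tst ![2, 0, 1, 0, 0, 0, 0, 1] 2 = true := by decide +kernel

theorem r46_0 : tst ![1, 2, 0, 0, 0, 1, 1, 0] 0 = true := by decide +kernel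

theorem r46_1 : tst ![1, 2, 0, 0, 0, 1, 1, 0] 1 = true := by decide +kernel

theorem r46_2 : tst ![1, 2, 0, 0, 0, 1, 1, 0] 2 = true := by decide +kernel

end Cfsg.Agent.H827.U33
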