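import Cfsg.Agent.H827.U33.DatG

/-! # S5525, part G: kernel checks, representatives 47 to 56 (helper827) -/

set_option autoImplicit false
set_option Elab.async false

namespace Cfsg.Agent.H827.U33

theorem r47_0 : tst ![0, 0, 1, 0, 2, 0, 1, 0] 0 = true := by decide +kernel

theorem r47_1 : tst ![0, 0, 1, 0, 2, 0, 1, 0] 1 = true := by decide +kernel

theorem r47_2 : tst ![0, 0, 1, 0, 2, 0, 1, 0] 2 = true := by decide +kernel

theorem r48_0 : tst ![2, 0, 1, 0, 0, 0, 1, 0] 0 = true := by decide +kernel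

theorem r48_1 : tst ![2, 0, 1, 0, 0, 0, 1, 0] 1 = true := by decide +kernel

theorem r48_2 : tst ![2, 0, 1, 0, 0, 0, 1, 0] 2 = true := by decide +kernel

theorem r49_0 : tst ![0, 1, 1, 0, 1, 0, 0, 1] 0 = true := by decide +kernel

theorem r49_1 : tst ![0, 1, 1, 0, 1, 0, 0, 1] 1 = true := by decide +kernel

theorem r49_2 : tst ![0, 1, 1, 0, 1, 0, 0, 1] 2 = true := by decide +kernel

theorem r50_0 : tst ![0, 1, 1, 0, 1, 0, 1, 0] 0 = true := by decide +kernel

theorem r50_1 : tst ![0, 1, 1, 0, 1, 0, 1, 0] 1 = true := by decide +kernel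

theorem r50_2 : tst ![0, 1, 1, 0, 1, 0, 1, 0] 2 = true := by decide +kernel

theorem r51_0 : tst ![1, 0, 1, 0, 0, 1, 1, 0] 0 = true := by decide +kernel

theorem r51_1 : tst ![1, 0, 1, 0, 0, 1, 1, 0] 1 = true := by decide +kernel

theorem r51_2 : tst ![1, 0, 1, 0, 0, 1, 1, 0] 2 = true := by decide +kernel

theorem r52_0 : tst ![0, 0, 1, 0, 0, 2, 0, 1] 0 = true := by decide +kernel

theorem r52_1 : tst ![0, 0, 1, 0, 0, 2, 0, 1] 1 = true := by decide +kernel

theorem r52_2 : tst ![0, 0, 1, 0, 0, 2, 0, 1] 2 = true := by decide +kernel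

theorem r53_0 : tst ![0, 1, 1, 0, 0, 1, 1, 0] 0 = true := by decide +kernel

theorem r53_1 : tst ![0, 1, 1, 0, 0, 1, 1, 0] 1 = true := by decide +kernel

theorem r53_2 : tst ![0, 1, 1, 0, 0, 1, 1, 0] 2 = true := by decide +kernel

theorem r54_0 : tst ![2, 2, 0, 0, 1, 0, 0, 1] 0 = true := by decide +kernel

theorem r54_1 : tst ![2, 2, 0, 0, 1, 0, 0, 1] 1 = true := by decide +kernel

theorem r54_2 : tst ![2, 2, 0, 0, 1, 0, 0, 1] 2 = true := by decide +kernel

theorem r55_0 : tst ![2, 1, 0, 0, 1, 1, 1, 0] 0 = true := by decide +kernel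

theorem r55_1 : tst ![2, 1, 0, 0, 1, 1, 1, 0] 1 = true := by decide +kernel

theorem r55_2 : tst ![2, 1, 0, 0, 1, 1, 1, 0] 2 = true := by decide +kernel

theorem r56_0 : tst ![1, 0, 0, 1, 2, 0, 0, 1] 0 = true := by decide +kernel

theorem r56_1 : tst ![1, 0, 0, 1, 2, 0, 0, 1] 1 = true := by decide +kernel

theorem r56_2 : tst ![1, 0, 0, 1, 2, 0, 0, 1] 2 = true := by decide +kernel

end Cfsg.Agent.H827.U33
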