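import Cfsg.Agent.H827.U33.DatG

/-! # S5525, part G: kernel checks, representatives 57 to 65 (helper827) -/

set_option autoImplicit false
set_option Elab.async false

namespace Cfsg.Agent.H827.U33

theorem r57_0 : tst ![0, 1, 0, 0, 2, 2, 0, 1] 0 = true := by decide +kernel

theorem r57_1 : tst ![0, 1, 0, 0, 2, 2, 0, 1] 1 = true := by decide +kernel

theorem r57_2 : tst ![0, 1, 0, 0, 2, 2, 0, 1] 2 = true := by decide +kernel

theorem r58_0 : tst ![1, 0, 1, 0, 2, 0, 0, 1] 0 = true := by decide +kernel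

theorem r58_1 : tst ![1, 0, 1, 0, 2, 0, 0, 1] 1 = true := by decide +kernel

theorem r58_2 : tst ![1, 0, 1, 0, 2, 0, 0, 1] 2 = true := by decide +kernel

theorem r59_0 : tst ![2, 0, 0, 0, 1, 0, 1, 1] 0 = true := by decide +kernel

theorem r59_1 : tst ![2, 0, 0, 0, 1, 0, 1, 1] 1 = true := by decide +kernel

theorem r59_2 : tst ![2, 0, 0, 0, 1, 0, 1, 1] 2 = true := by decide +kernel

theorem r60_0 : tst ![2, 0, 1, 0, 1, 0, 1, 0] 0 = true := by decide +kernel

theorem r60_1 : tst ![2, 0, 1, 0, 1, 0, 1, 0] 1 = true := by decide +kernel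

theorem r60_2 : tst ![2, 0, 1, 0, 1, 0, 1, 0] 2 = true := by decide +kernel

theorem r61_0 : tst ![0, 1, 0, 1, 2, 0, 0, 1] 0 = true := by decide +kernel

theorem r61_1 : tst ![0, 1, 0, 1, 2, 0, 0, 1] 1 = true := by decide +kernel

theorem r61_2 : tst ![0, 1, 0, 1, 2, 0, 0, 1] 2 = true := by decide +kernel

theorem r62_0 : tst ![0, 0, 1, 0, 2, 1, 0, 1] 0 = true := by decide +kernel

theorem r62_1 : tst ![0, 0, 1, 0, 2, 1, 0, 1] 1 = true := by decide +kernel

theorem r62_2 : tst ![0, 0, 1, 0, 2, 1, 0, 1] 2 = true := by decide +kernel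

theorem r63_0 : tst ![1, 0, 1, 0, 1, 1, 0, 1] 0 = true := by decide +kernel

theorem r63_1 : tst ![1, 0, 1, 0, 1, 1, 0, 1] 1 = true := by decide +kernel

theorem r63_2 : tst ![1, 0, 1, 0, 1, 1, 0, 1] 2 = true := by decide +kernel

theorem r64_0 : tst ![1, 1, 1, 0, 1, 0, 0, 1] 0 = true := by decide +kernel

theorem r64_1 : tst ![1, 1, 1, 0, 1, 0, 0, 1] 1 = true := by decide +kernel

theorem r64_2 : tst ![1, 1, 1, 0, 1, 0, 0, 1] 2 = true := by decide +kernel

theorem r65_0 : tst ![2, 0, 0, 0, 0, 1, 1, 1] 0 = true := by decide +kernel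

theorem r65_1 : tst ![2, 0, 0, 0, 0, 1, 1, 1] 1 = true := by decide +kernel

theorem r65_2 : tst ![2, 0, 0, 0, 0, 1, 1, 1] 2 = true := by decide +kernel

end Cfsg.Agent.H827.U33
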