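import Cfsg.Agent.H827.U33.DatG

/-! # S5525, part G: kernel checks, representatives 66 to 75 (helper827) -/

set_option autoImplicit false
set_option Elab.async false

namespace Cfsg.Agent.H827.U33

theorem r66_0 : tst ![2, 0, 0, 1, 0, 1, 1, 0] 0 = true := by decide +kernel

theorem r66_1 : tst ![2, 0, 0, 1, 0, 1, 1, 0] 1 = true := by decide +kernel

theorem r66_2 : tst ![2, 0, 0, 1, 0, 1, 1, 0] 2 = true := by decide +kernel

theorem r67_0 : tst ![0, 0, 1, 0, 2, 1, 1, 0] 0 = true := by decide +kernel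

theorem r67_1 : tst ![0, 0, 1, 0, 2, 1, 1, 0] 1 = true := by decide +kernel

theorem r67_2 : tst ![0, 0, 1, 0, 2, 1, 1, 0] 2 = true := by decide +kernel

theorem r68_0 : tst ![1, 1, 1, 0, 1, 0, 1, 0] 0 = true := by decide +kernel

theorem r68_1 : tst ![1, 1, 1, 0, 1, 0, 1, 0] 1 = true := by decide +kernel

theorem r68_2 : tst ![1, 1, 1, 0, 1, 0, 1, 0] 2 = true := by decide +kernel

theorem r69_0 : tst ![0, 2, 0, 1, 1, 0, 0, 1] 0 = true := by decide +kernel

theorem r69_1 : tst ![0, 2, 0, 1, 1, 0, 0, 1] 1 = true := by decide +kernel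

theorem r69_2 : tst ![0, 2, 0, 1, 1, 0, 0, 1] 2 = true := by decide +kernel

theorem r70_0 : tst ![1, 1, 0, 1, 0, 1, 0, 1] 0 = true := by decide +kernel

theorem r70_1 : tst ![1, 1, 0, 1, 0, 1, 0, 1] 1 = true := by decide +kernel

theorem r70_2 : tst ![1, 1, 0, 1, 0, 1, 0, 1] 2 = true := by decide +kernel

theorem r71_0 : tst ![0, 2, 1, 0, 1, 0, 0, 1] 0 = true := by decide +kernel

theorem r71_1 : tst ![0, 2, 1, 0, 1, 0, 0, 1] 1 = true := by decide +kernel

theorem r71_2 : tst ![0, 2, 1, 0, 1, 0, 0, 1] 2 = true := by decide +kernel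

theorem r72_0 : tst ![1, 0, 0, 1, 0, 2, 1, 0] 0 = true := by decide +kernel

theorem r72_1 : tst ![1, 0, 0, 1, 0, 2, 1, 0] 1 = true := by decide +kernel

theorem r72_2 : tst ![1, 0, 0, 1, 0, 2, 1, 0] 2 = true := by decide +kernel

theorem r73_0 : tst ![1, 1, 1, 0, 0, 1, 0, 1] 0 = true := by decide +kernel

theorem r73_1 : tst ![1, 1, 1, 0, 0, 1, 0, 1] 1 = true := by decide +kernel

theorem r73_2 : tst ![1, 1, 1, 0, 0, 1, 0, 1] 2 = true := by decide +kernel

theorem r74_0 : tst ![0, 0, 0, 0, 1, 0, 1, 2] 0 = true := by decide +kernel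

theorem r74_1 : tst ![0, 0, 0, 0, 1, 0, 1, 2] 1 = true := by decide +kernel

theorem r74_2 : tst ![0, 0, 0, 0, 1, 0, 1, 2] 2 = true := by decide +kernel

theorem r75_0 : tst ![0, 1, 0, 1, 0, 2, 1, 0] 0 = true := by decide +kernel

theorem r75_1 : tst ![0, 1, 0, 1, 0, 2, 1, 0] 1 = true := by decide +kernel

theorem r75_2 : tst ![0, 1, 0, 1, 0, 2, 1, 0] 2 = true := by decide +kernel

end Cfsg.Agent.H827.U33
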