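import Cfsg.Agent.H827.U33.DatG

/-! # S5525, part G: kernel checks, representatives 76 to 84 (helper827) -/

set_option autoImplicit false
set_option Elab.async false

namespace Cfsg.Agent.H827.U33

theorem r76_0 : tst ![0, 2, 0, 1, 0, 1, 1, 0] 0 = true := by decide +kernel

theorem r76_1 : tst ![0, 2, 0, 1, 0, 1, 1, 0] 1 = true := by decide +kernel

theorem r76_2 : tst ![0, 2, 0, 1, 0, 1, 1, 0] 2 = true := by decide +kernel

theorem r77_0 : tst ![0, 0, 1, 0, 1, 0, 1, 1] 0 = true := by decide +kernel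

theorem r77_1 : tst ![0, 0, 1, 0, 1, 0, 1, 1] 1 = true := by decide +kernel

theorem r77_2 : tst ![0, 0, 1, 0, 1, 0, 1, 1] 2 = true := by decide +kernel

theorem r78_0 : tst ![2, 0, 0, 1, 2, 0, 0, 1] 0 = true := by decide +kernel

theorem r78_1 : tst ![2, 0, 0, 1, 2, 0, 0, 1] 1 = true := by decide +kernel

theorem r78_2 : tst ![2, 0, 0, 1, 2, 0, 0, 1] 2 = true := by decide +kernel

theorem r79_0 : tst ![0, 0, 2, 0, 1, 0, 1, 0] 0 = true := by decide +kernel

theorem r79_1 : tst ![0, 0, 2, 0, 1, 0, 1, 0] 1 = true := by decide +kernel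

theorem r79_2 : tst ![0, 0, 2, 0, 1, 0, 1, 0] 2 = true := by decide +kernel

theorem r80_0 : tst ![1, 1, 0, 0, 2, 2, 0, 1] 0 = true := by decide +kernel

theorem r80_1 : tst ![1, 1, 0, 0, 2, 2, 0, 1] 1 = true := by decide +kernel

theorem r80_2 : tst ![1, 1, 0, 0, 2, 2, 0, 1] 2 = true := by decide +kernel

theorem r81_0 : tst ![2, 0, 1, 0, 2, 0, 0, 1] 0 = true := by decide +kernel

theorem r81_1 : tst ![2, 0, 1, 0, 2, 0, 0, 1] 1 = true := by decide +kernel

theorem r81_2 : tst ![2, 0, 1, 0, 2, 0, 0, 1] 2 = true := by decide +kernel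

theorem r82_0 : tst ![1, 0, 1, 0, 2, 1, 0, 1] 0 = true := by decide +kernel

theorem r82_1 : tst ![1, 0, 1, 0, 2, 1, 0, 1] 1 = true := by decide +kernel

theorem r82_2 : tst ![1, 0, 1, 0, 2, 1, 0, 1] 2 = true := by decide +kernel

theorem r83_0 : tst ![2, 1, 1, 0, 1, 0, 0, 1] 0 = true := by decide +kernel

theorem r83_1 : tst ![2, 1, 1, 0, 1, 0, 0, 1] 1 = true := by decide +kernel

theorem r83_2 : tst ![2, 1, 1, 0, 1, 0, 0, 1] 2 = true := by decide +kernel

theorem r84_0 : tst ![1, 0, 1, 0, 2, 1, 1, 0] 0 = true := by decide +kernel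

theorem r84_1 : tst ![1, 0, 1, 0, 2, 1, 1, 0] 1 = true := by decide +kernel

theorem r84_2 : tst ![1, 0, 1, 0, 2, 1, 1, 0] 2 = true := by decide +kernel

end Cfsg.Agent.H827.U33
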