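import Cfsg.Agent.H827.U33.DatG

/-! # S5525, part G: kernel checks, representatives 85 to 94 (helper827) -/

set_option autoImplicit false
set_option Elab.async false

namespace Cfsg.Agent.H827.U33

theorem r85_0 : tst ![2, 1, 1, 0, 1, 0, 1, 0] 0 = true := by decide +kernel

theorem r85_1 : tst ![2, 1, 1, 0, 1, 0, 1, 0] 1 = true := by decide +kernel

theorem r85_2 : tst ![2, 1, 1, 0, 1, 0, 1, 0] 2 = true := by decide +kernel

theorem r86_0 : tst ![0, 0, 0, 1, 2, 2, 0, 1] 0 = true := by decide +kernel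

theorem r86_1 : tst ![0, 0, 0, 1, 2, 2, 0, 1] 1 = true := by decide +kernel

theorem r86_2 : tst ![0, 0, 0, 1, 2, 2, 0, 1] 2 = true := by decide +kernel

theorem r87_0 : tst ![1, 2, 0, 1, 1, 0, 1, 0] 0 = true := by decide +kernel

theorem r87_1 : tst ![1, 2, 0, 1, 1, 0, 1, 0] 1 = true := by decide +kernel

theorem r87_2 : tst ![1, 2, 0, 1, 1, 0, 1, 0] 2 = true := by decide +kernel

theorem r88_0 : tst ![1, 0, 1, 1, 1, 0, 0, 1] 0 = true := by decide +kernel

theorem r88_1 : tst ![1, 0, 1, 1, 1, 0, 0, 1] 1 = true := by decide +kernel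

theorem r88_2 : tst ![1, 0, 1, 1, 1, 0, 0, 1] 2 = true := by decide +kernel

theorem r89_0 : tst ![1, 0, 1, 1, 1, 0, 1, 0] 0 = true := by decide +kernel

theorem r89_1 : tst ![1, 0, 1, 1, 1, 0, 1, 0] 1 = true := by decide +kernel

theorem r89_2 : tst ![1, 0, 1, 1, 1, 0, 1, 0] 2 = true := by decide +kernel

theorem r90_0 : tst ![0, 1, 2, 0, 1, 0, 0, 1] 0 = true := by decide +kernel

theorem r90_1 : tst ![0, 1, 2, 0, 1, 0, 0, 1] 1 = true := by decide +kernel

theorem r90_2 : tst ![0, 1, 2, 0, 1, 0, 0, 1] 2 = true := by decide +kernel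

theorem r91_0 : tst ![2, 1, 0, 0, 2, 2, 1, 0] 0 = true := by decide +kernel

theorem r91_1 : tst ![2, 1, 0, 0, 2, 2, 1, 0] 1 = true := by decide +kernel

theorem r91_2 : tst ![2, 1, 0, 0, 2, 2, 1, 0] 2 = true := by decide +kernel

theorem r92_0 : tst ![0, 2, 1, 0, 0, 2, 1, 0] 0 = true := by decide +kernel

theorem r92_1 : tst ![0, 2, 1, 0, 0, 2, 1, 0] 1 = true := by decide +kernel

theorem r92_2 : tst ![0, 2, 1, 0, 0, 2, 1, 0] 2 = true := by decide +kernel

theorem r93_0 : tst ![0, 1, 0, 0, 0, 1, 1, 2] 0 = true := by decide +kernel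

theorem r93_1 : tst ![0, 1, 0, 0, 0, 1, 1, 2] 1 = true := by decide +kernel

theorem r93_2 : tst ![0, 1, 0, 0, 0, 1, 1, 2] 2 = true := by decide +kernel

theorem r94_0 : tst ![2, 0, 1, 0, 2, 1, 0, 1] 0 = true := by decide +kernel

theorem r94_1 : tst ![2, 0, 1, 0, 2, 1, 0, 1] 1 = true := by decide +kernel

theorem r94_2 : tst ![2, 0, 1, 0, 2, 1, 0, 1] 2 = true := by decide +kernel

end Cfsg.Agent.H827.U33
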